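import Mathlib
import Cfsg.Agent.Lib.Helper50.HUPT.Defs

/-!
# HUPT package [SQ]: a group whose commutators lie in a central subgroup of prime order
has centre of index an even power of that prime.
-/

set_option autoImplicit false

universe v

namespace Cfsg.Agent.Lib.Helper41.HUPT

open Cfsg.Agent.Lib.Helper50.HUPT (cm)

theorem sq_cm_mul {Q : Type v} [Group Q] (g h a : Q) (hc : ∀ x : Q, cm h a * x = x * cm h a) :
    cm (g * h) a = cm g a * cm h a := by
  have h1 : cm (g * h) a = g * cm h a * a * g⁻¹ * a⁻¹ := by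
    unfold cm; group
  rw [h1, ← hc g]
  have h2 : cm h a * g * a * g⁻¹ * a⁻¹ = cm h a * cm g a := by
    unfold cm; group
  rw [h2, hc]

theorem sq_cm_eq_one_iff {Q : Type v} [Group Q] (x a : Q) : cm x a = 1 ↔ x * a = a * x := by
  unfold cm
  constructor
  · intro h
    have h2 : x * a = (x * a * x⁻¹ * a⁻¹) * (a * x) := by group
    rw [h2, h, one_mul]
  · intro h
    rw [h]; group

/-- the homomorphism `g ↦ [g, a]` -/
noncomputable def sqHom {Q : Type v} [Group Q] (z a : Q) (hz : z ∈ Subgroup.center Q)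
    (hcm : ∀ a b : Q, cm a b ∈ Subgroup.zpowers z) : Q →* Subgroup.zpowers z :=
  MonoidHom.mk' (fun g => ⟨cm g a, hcm g a⟩) (by
    intro g h
    apply Subtype.ext
    have hc : ∀ x : Q, cm h a * x = x * cm h a := by
      intro x
      obtain ⟨k, hk⟩ := Subgroup.mem_zpowers_iff.mp (hcm h a)
      have hzk : z ^ k ∈ Subgroup.center Q := Subgroup.zpow_mem _ hz k
      rw [← hk]
      exact (Subgroup.mem_center_iff.mp hzk x).symm
    simpa using sq_cm_mul g h a hc)

theorem sqHom_apply {Q : Type v} [Group Q] (z a : Q) (hz : z ∈ Subgroup.center Q)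
    (hcm : ∀ a b : Q, cm a b ∈ Subgroup.zpowers z) (g : Q) :
    ((sqHom z a hz hcm g : Subgroup.zpowers z) : Q) = cm g a := rfl

theorem sq_aux (r : ℕ) (hr : r.Prime) : ∀ (n : ℕ) (Q : Type v) [Group Q] [Finite Q] (z : Q),
    Nat.card Q = n → z ∈ Subgroup.center Q → orderOf z = r →
    (∀ a b : Q, cm a b ∈ Subgroup.zpowers z) →
    ∃ d : ℕ, (Subgroup.center Q).index = r ^ (2 * d) := by
  intro n
  induction n using Nat.strong_induction_on with
  | _ n ih =>
  intro Q _ _ z hn hz ho hcm
  by_cases hab : ∀ a b : Q, cm a b = 1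
  · refine ⟨0, ?_⟩
    have htop : Subgroup.center Q = ⊤ := by
      rw [eq_top_iff]
      intro x _
      rw [Subgroup.mem_center_iff]
      intro g
      exact (sq_cm_eq_one_iff g x).mp (hab g x)
    rw [htop, Subgroup.index_top]; simp
  · push_neg at hab
    obtain ⟨a, b, hab⟩ := hab
    haveI : Fact r.Prime := ⟨hr⟩
    have hcard : Nat.card (Subgroup.zpowers z) = r := by rw [Nat.card_zpowers, ho]
    have hfa_b : sqHom z a hz hcm b ≠ 1 := by
      intro h
      have h1 : cm b a = 1 := by
        have := congrArg (Subtype.val) h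
        simpa [sqHom_apply] using this
      have h2 : b * a = a * b := (sq_cm_eq_one_iff b a).mp h1
      exact hab ((sq_cm_eq_one_iff a b).mpr h2.symm)
    have hfb_a : sqHom z b hz hcm a ≠ 1 := by
      intro h
      have h1 : cm a b = 1 := by
        have := congrArg (Subtype.val) h
        simpa [sqHom_apply] using this
      exact hab h1
    have hfa_a : sqHom z a hz hcm a = 1 := by
      apply Subtype.ext
      rw [sqHom_apply]
      exact (sq_cm_eq_one_iff a a).mpr rfl
    have hfb_b : sqHom z b hz hcm b = 1 := by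
      apply Subtype.ext
      rw [sqHom_apply]
      exact (sq_cm_eq_one_iff b b).mpr rfl
    have hdecomp : ∀ g : Q, ∃ (i j : ℤ),
        (sqHom z a hz hcm).prod (sqHom z b hz hcm) g
          = (sqHom z a hz hcm).prod (sqHom z b hz hcm) (b ^ i * a ^ j) := by
      intro g
      have h1 : sqHom z a hz hcm g ∈ Subgroup.zpowers (sqHom z a hz hcm b) :=
        mem_zpowers_of_prime_card hcard hfa_b
      have h2 : sqHom z b hz hcm g ∈ Subgroup.zpowers (sqHom z b hz hcm a) :=
        mem_zpowers_of_prime_card hcard hfb_a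
      obtain ⟨i, hi⟩ := Subgroup.mem_zpowers_iff.mp h1
      obtain ⟨j, hj⟩ := Subgroup.mem_zpowers_iff.mp h2
      refine ⟨i, j, ?_⟩
      rw [MonoidHom.prod_apply, MonoidHom.prod_apply, map_mul, map_mul, map_zpow, map_zpow,
        map_zpow, map_zpow, hfa_a, hfb_b, one_zpow, one_zpow, mul_one, one_mul, hi, hj]
    have hsurj : Function.Surjective ((sqHom z a hz hcm).prod (sqHom z b hz hcm)) := by
      rintro ⟨u, w⟩
      have h1 : u ∈ Subgroup.zpowers (sqHom z a hz hcm b) :=
        mem_zpowers_of_prime_card hcard hfa_b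
      have h2 : w ∈ Subgroup.zpowers (sqHom z b hz hcm a) :=
        mem_zpowers_of_prime_card hcard hfb_a
      obtain ⟨i, hi⟩ := Subgroup.mem_zpowers_iff.mp h1
      obtain ⟨j, hj⟩ := Subgroup.mem_zpowers_iff.mp h2
      refine ⟨b ^ i * a ^ j, ?_⟩
      rw [MonoidHom.prod_apply, map_mul, map_mul, map_zpow, map_zpow,
        map_zpow, map_zpow, hfa_a, hfb_b, one_zpow, one_zpow, mul_one, one_mul, hi, hj]
    set K : Subgroup Q := ((sqHom z a hz hcm).prod (sqHom z b hz hcm)).ker with hK
    have hKidx : K.index = r ^ 2 := by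
      rw [hK, Subgroup.index_ker, MonoidHom.range_eq_top.mpr hsurj, Subgroup.card_top,
        Nat.card_prod, hcard]
      ring
    have hKmem : ∀ x : Q, x ∈ K ↔ x * a = a * x ∧ x * b = b * x := by
      intro x
      rw [hK, MonoidHom.mem_ker, MonoidHom.prod_apply, Prod.mk_eq_one,
        ← sq_cm_eq_one_iff, ← sq_cm_eq_one_iff]
      constructor
      · rintro ⟨h1, h2⟩
        exact ⟨by simpa [sqHom_apply] using congrArg Subtype.val h1,
          by simpa [sqHom_apply] using congrArg Subtype.val h2⟩
      · rintro ⟨h1, h2⟩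
        exact ⟨Subtype.ext (by rw [sqHom_apply]; exact h1),
          Subtype.ext (by rw [sqHom_apply]; exact h2)⟩
    have hle : Subgroup.center Q ≤ K := by
      intro x hx
      rw [hKmem]
      exact ⟨(Subgroup.mem_center_iff.mp hx a).symm, (Subgroup.mem_center_iff.mp hx b).symm⟩
    have hcen : (Subgroup.center Q).subgroupOf K = Subgroup.center K := by
      ext ⟨x, hx⟩
      rw [Subgroup.mem_subgroupOf, Subgroup.mem_center_iff, Subgroup.mem_center_iff]
      constructor
      · intro h ⟨g, hg⟩
        exact Subtype.ext (h g)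
      · intro h g
        obtain ⟨i, j, hij⟩ := hdecomp g
        have hk : (b ^ i * a ^ j)⁻¹ * g ∈ K := by
          rw [hK, MonoidHom.mem_ker, map_mul, map_inv, hij, inv_mul_cancel]
        have hxk : Commute x ((b ^ i * a ^ j)⁻¹ * g) := by
          have := h ⟨(b ^ i * a ^ j)⁻¹ * g, hk⟩
          exact (congrArg Subtype.val this).symm
        have hxa : Commute x a := ((hKmem x).mp hx).1
        have hxb : Commute x b := ((hKmem x).mp hx).2
        have hg : g = (b ^ i * a ^ j) * ((b ^ i * a ^ j)⁻¹ * g) := by group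
        have : Commute x g := by
          rw [hg]
          exact ((hxb.zpow_right i).mul_right (hxa.zpow_right j)).mul_right hxk
        exact this.eq.symm
    have hzK : z ∈ K := hle hz
    have hKlt : Nat.card K < n := by
      have h1 : Nat.card K * K.index = Nat.card Q := Subgroup.card_mul_index K
      have h2 : 0 < Nat.card K := Nat.card_pos
      have h3 : 2 ≤ r := hr.two_le
      rw [hKidx, hn] at h1
      have h4 : 2 ≤ r ^ 2 := by nlinarith
      calc Nat.card K < Nat.card K * 2 := by omega
        _ ≤ Nat.card K * r ^ 2 := Nat.mul_le_mul_left _ h4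
        _ = n := h1
    obtain ⟨d, hd⟩ := ih (Nat.card K) hKlt K ⟨z, hzK⟩ rfl
      (by
        rw [Subgroup.mem_center_iff]
        intro ⟨g, hg⟩
        exact Subtype.ext (Subgroup.mem_center_iff.mp hz g))
      (by rw [← ho]; exact Subgroup.orderOf_mk z hzK)
      (by
        intro ⟨x, hx⟩ ⟨y, hy⟩
        obtain ⟨k, hk⟩ := Subgroup.mem_zpowers_iff.mp (hcm x y)
        rw [Subgroup.mem_zpowers_iff]
        refine ⟨k, Subtype.ext ?_⟩
        rw [Subgroup.coe_zpow]
        exact hk)
    refine ⟨d + 1, ?_⟩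
    rw [← Subgroup.relIndex_mul_index hle, Subgroup.relIndex, hcen, hd, hKidx]
    ring

theorem pkgSq : Cfsg.Agent.Lib.Helper50.HUPT.PkgSq.{v} := by
  intro Q _ _ r z hr hz ho hcm
  exact sq_aux r hr (Nat.card Q) Q z rfl hz ho hcm

end Cfsg.Agent.Lib.Helper41.HUPT
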