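import Mathlib
import Cfsg.Agent.Lib.Helper50.HUPT.Defs
import Cfsg.Agent.Lib.Helper41.HUPT.Sq

/-!
# HUPT package [DEGABS]: a faithful class-2 group whose centre acts by scalars has
centre of index at most the square of the degree (for a non-trivial module).
-/

set_option autoImplicit false

universe u v w

namespace Cfsg.Agent.Lib.Helper41.HUPT

open Cfsg.Agent.Lib.Helper50.HUPT (cm)

theorem degAbs {F : Type u} [Field F] {V : Type w} [AddCommGroup V] [Module F V]
    [Module.Finite F V] [Nontrivial V] {M : Type v} [Group M] [Finite M]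
    (τ : M →* (V ≃ₗ[F] V)) (hinj : Function.Injective τ)
    (hcl : ∀ a b c : M, cm a b * c = c * cm a b)
    (hsc : ∀ z ∈ Subgroup.center M, ∃ c : F, ∀ v : V, τ z v = c • v) :
    (Subgroup.center M).index ≤ (Module.finrank F V) ^ 2 := by
  classical
  obtain ⟨v₀, hv₀⟩ := exists_ne (0 : V)
  obtain ⟨sc, hsc'⟩ : ∃ sc : M → F, ∀ z ∈ Subgroup.center M, ∀ v : V, τ z v = sc z • v := by
    refine ⟨fun z => if h : z ∈ Subgroup.center M then Classical.choose (hsc z h) else 0, ?_⟩
    intro z hz v
    simp only [dif_pos hz]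
    exact Classical.choose_spec (hsc z hz) v
  have hcmc : ∀ a b : M, cm a b ∈ Subgroup.center M := by
    intro a b
    rw [Subgroup.mem_center_iff]
    intro g
    exact (hcl a b g).symm
  have hsc_mul : ∀ z ∈ Subgroup.center M, ∀ z' ∈ Subgroup.center M,
      sc (z * z') = sc z * sc z' := by
    intro z hz z' hz'
    have h1 := hsc' (z * z') (Subgroup.mul_mem _ hz hz') v₀
    rw [map_mul, LinearEquiv.mul_apply, hsc' z' hz' v₀, map_smul, hsc' z hz v₀, smul_smul] at h1
    have h2 : sc z' * sc z = sc (z * z') := smul_left_injective F hv₀ h1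
    rw [← h2, mul_comm]
  have hsc_one : sc 1 = 1 := by
    have h1 := hsc' 1 (Subgroup.one_mem _) v₀
    rw [map_one] at h1
    have h2 : (1 : F) • v₀ = sc 1 • v₀ := by rw [one_smul]; exact h1
    exact (smul_left_injective F hv₀ h2).symm
  let χ : M → (M →* F) := fun t =>
    { toFun := fun m => sc (cm m t)
      map_one' := by
        have h1 : cm 1 t = 1 := by unfold cm; group
        rw [h1, hsc_one]
      map_mul' := by
        intro m m'
        rw [sq_cm_mul m m' t (fun x => hcl m' t x), hsc_mul _ (hcmc m t) _ (hcmc m' t)] }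
  have hχ : ∀ t m : M, χ t m = sc (cm m t) := fun t m => rfl
  have hχinj : Function.Injective (fun q : M ⧸ Subgroup.center M => χ q.out) := by
    intro q q' h
    have h1 : ∀ m : M, cm m q.out = cm m q'.out := by
      intro m
      have h2 : sc (cm m q.out) = sc (cm m q'.out) := DFunLike.congr_fun h m
      apply hinj
      ext v
      rw [hsc' _ (hcmc _ _), hsc' _ (hcmc _ _), h2]
    have h3 : q'.out⁻¹ * q.out ∈ Subgroup.center M := by
      rw [Subgroup.mem_center_iff]
      intro g
      have h4 : q.out * g * q.out⁻¹ = q'.out * g * q'.out⁻¹ := by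
        have h5 := h1 g⁻¹
        unfold cm at h5
        have h6 := congrArg (fun x => g * x) h5
        simpa [mul_assoc] using h6
      calc g * (q'.out⁻¹ * q.out) = q'.out⁻¹ * (q'.out * g * q'.out⁻¹) * q.out := by group
        _ = q'.out⁻¹ * (q.out * g * q.out⁻¹) * q.out := by rw [h4]
        _ = q'.out⁻¹ * q.out * g := by group
    have h5 : (q'.out : M ⧸ Subgroup.center M) = (q.out : M ⧸ Subgroup.center M) :=
      QuotientGroup.eq.mpr h3
    rw [QuotientGroup.out_eq', QuotientGroup.out_eq'] at h5
    exact h5.symm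
  let E : M → Module.End F V := fun m => ((τ m : V ≃ₗ[F] V) : V →ₗ[F] V)
  have hE : ∀ (m : M) (v : V), E m v = τ m v := fun m v => rfl
  have hconjE : ∀ m t : M, E m * E t * E m⁻¹ = sc (cm m t) • E t := by
    intro m t
    ext v
    rw [Module.End.mul_apply, Module.End.mul_apply, LinearMap.smul_apply, hE, hE, hE, hE,
      ← hsc' _ (hcmc m t), ← LinearEquiv.mul_apply, ← LinearEquiv.mul_apply,
      ← LinearEquiv.mul_apply, ← map_mul, ← map_mul, ← map_mul]
    congr 2
    unfold cm; group
  have hli : LinearIndependent F (fun q : M ⧸ Subgroup.center M => E q.out) := by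
    rw [linearIndependent_iff']
    intro s c hsum q₀ hq₀
    have hm : ∀ m : M, ∑ q ∈ s, (c q * sc (cm m q.out)) • E q.out = 0 := by
      intro m
      have h1 : E m * (∑ q ∈ s, c q • E q.out) * E m⁻¹ = 0 := by rw [hsum]; simp
      rw [Finset.mul_sum, Finset.sum_mul] at h1
      rw [← h1]
      apply Finset.sum_congr rfl
      intro q _
      rw [mul_smul_comm, smul_mul_assoc, hconjE, smul_smul]
    have hφ : ∀ φ : Module.Dual F (Module.End F V), c q₀ * φ (E q₀.out) = 0 := by
      intro φ
      have hχli := (linearIndependent_monoidHom M F).comp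
        (fun q : M ⧸ Subgroup.center M => χ q.out) hχinj
      rw [linearIndependent_iff'] at hχli
      refine hχli s (fun q => c q * φ (E q.out)) ?_ q₀ hq₀
      funext m
      have h2 := congrArg φ (hm m)
      simp only [map_sum, map_smul, smul_eq_mul, map_zero] at h2
      simp only [Finset.sum_apply, Pi.smul_apply, Function.comp, smul_eq_mul, Pi.zero_apply]
      rw [← h2]
      apply Finset.sum_congr rfl
      intro q _
      rw [hχ]
      ring
    have h0 : c q₀ • E q₀.out = 0 := by
      rw [← Module.forall_dual_apply_eq_zero_iff F]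
      intro φ
      rw [map_smul, smul_eq_mul]
      exact hφ φ
    rcases smul_eq_zero.mp h0 with h | h
    · exact h
    · exfalso
      have h7 : E q₀.out v₀ = 0 := by rw [h]; rfl
      rw [hE] at h7
      exact hv₀ ((τ q₀.out).map_eq_zero_iff.mp h7)
  let _ : Fintype (M ⧸ Subgroup.center M) := Fintype.ofFinite _
  have hle := hli.fintype_card_le_finrank
  rw [Subgroup.index_eq_card, Nat.card_eq_fintype_card]
  calc Fintype.card (M ⧸ Subgroup.center M) ≤ Module.finrank F (Module.End F V) := hle
    _ = (Module.finrank F V) ^ 2 := by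
      have h8 : Module.finrank F (V →ₗ[F] V) = Module.finrank F V * Module.finrank F V :=
        Module.finrank_linearMap F F V V
      rw [pow_two]
      exact h8

theorem pkgDegAbs : Cfsg.Agent.Lib.Helper50.HUPT.PkgDegAbs.{u, v} := by
  intro F _ V _ _ _ _ M _ _ τ hinj hcl hsc
  exact degAbs τ hinj hcl hsc

end Cfsg.Agent.Lib.Helper41.HUPT
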