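import Mathlib

/-!
# The field lemma for transitive linear groups

`fld_lemma`: let `G` act linearly on `V` (finite), transitively on the non-zero vectors, and let `R`
be a commutative subalgebra of `End V` normalized by `G`. Then every non-zero element of `R` kills no
non-zero vector.
-/

set_option autoImplicit false

namespace Cfsg.Agent.Lib.Helper41.HUPT

variable {k V G : Type*} [Field k] [AddCommGroup V] [Module k V] [Group G]

theorem fld_lemma [Finite V] (ρ : G →* (V ≃ₗ[k] V))
    (htrans : ∀ v w : V, v ≠ 0 → w ≠ 0 → ∃ g : G, ρ g v = w)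
    (R : Subalgebra k (Module.End k V))
    (hcomm : ∀ f ∈ R, ∀ h ∈ R, f * h = h * f)
    (hnorm : ∀ g : G, ∀ f ∈ R,
      ((ρ g : V ≃ₗ[k] V) : V →ₗ[k] V) * f * ((ρ g⁻¹ : V ≃ₗ[k] V) : V →ₗ[k] V) ∈ R)
    (f : Module.End k V) (hf : f ∈ R) (hf0 : f ≠ 0) (v : V) (hv : v ≠ 0) : f v ≠ 0 := by
  classical
  have hfinE : Finite (Module.End k V) :=
    Finite.of_injective (fun f => (f : V → V)) DFunLike.coe_injective
  have hfinR : Finite R := inferInstance
  -- annihilators
  let N : V → Set R := fun v => {h : R | (h : Module.End k V) v = 0}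
  have hNfin : ∀ v, (N v).Finite := fun v => Set.toFinite _
  -- conjugation maps N v bijectively onto N (g v)
  have hρinv : ∀ (g : G) (w : V), ρ g⁻¹ (ρ g w) = w := by
    intro g w
    rw [← LinearEquiv.mul_apply, ← map_mul, inv_mul_cancel, map_one]
    rfl
  have hρinv' : ∀ (g : G) (w : V), ρ g (ρ g⁻¹ w) = w := by
    intro g w
    rw [← LinearEquiv.mul_apply, ← map_mul, mul_inv_cancel, map_one]
    rfl
  have hle : ∀ (g : G) (v : V), Set.ncard (N v) ≤ Set.ncard (N (ρ g v)) := by
    intro g v
    let c : R → R := fun h => ⟨_, hnorm g h h.2⟩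
    have hc_inj : Function.Injective c := by
      intro h1 h2 h12
      have e : ((ρ g : V ≃ₗ[k] V) : V →ₗ[k] V) * (h1 : Module.End k V) *
          ((ρ g⁻¹ : V ≃ₗ[k] V) : V →ₗ[k] V) =
          ((ρ g : V ≃ₗ[k] V) : V →ₗ[k] V) * (h2 : Module.End k V) *
          ((ρ g⁻¹ : V ≃ₗ[k] V) : V →ₗ[k] V) := congrArg Subtype.val h12
      apply Subtype.ext
      apply LinearMap.ext
      intro w
      have e2 := congrArg (fun F : Module.End k V => ρ g⁻¹ (F (ρ g w))) e
      simp only [Module.End.mul_apply, LinearEquiv.coe_coe, hρinv] at e2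
      exact e2
    apply Set.ncard_le_ncard_of_injOn c _ (hc_inj.injOn) (hNfin _)
    intro h hh
    show ((ρ g : V ≃ₗ[k] V) : V →ₗ[k] V) ((h : Module.End k V) (ρ g⁻¹ (ρ g v))) = 0
    rw [hρinv]
    have hh' : (h : Module.End k V) v = 0 := hh
    rw [hh']
    simp
  have hcard : ∀ v w : V, v ≠ 0 → w ≠ 0 → Set.ncard (N v) = Set.ncard (N w) := by
    intro v w hv hw
    obtain ⟨g, hg⟩ := htrans v w hv hw
    obtain ⟨g', hg'⟩ := htrans w v hw hv
    have h1 := hle g v
    have h2 := hle g' w
    rw [hg] at h1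
    rw [hg'] at h2
    exact le_antisymm h1 h2
  -- N v ⊆ N (h v)
  have hsub : ∀ (h : R) (v : V), N v ⊆ N ((h : Module.End k V) v) := by
    intro h v h' hh'
    show (h' : Module.End k V) ((h : Module.End k V) v) = 0
    have e : (h' : Module.End k V) ((h : Module.End k V) v) =
        ((h' : Module.End k V) * (h : Module.End k V)) v := rfl
    rw [e, hcomm _ h'.2 _ h.2]
    show (h : Module.End k V) ((h' : Module.End k V) v) = 0
    have hh'' : (h' : Module.End k V) v = 0 := hh'
    rw [hh'']
    simp
  have heq : ∀ (h : R) (v : V), v ≠ 0 → (h : Module.End k V) v ≠ 0 →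
      N v = N ((h : Module.End k V) v) := by
    intro h v hv hhv
    exact Set.eq_of_subset_of_ncard_le (hsub h v) (hcard _ _ hhv hv).le (hNfin _)
  -- all annihilators of non-zero vectors coincide
  have hall : ∀ v w : V, v ≠ 0 → w ≠ 0 → N v = N w := by
    intro v w hv hw
    by_contra hne
    have h1 : ¬ N v ⊆ N w := fun hs =>
      hne (Set.eq_of_subset_of_ncard_le hs (hcard _ _ hw hv).le (hNfin _))
    have h2 : ¬ N w ⊆ N v := fun hs =>
      hne (Set.eq_of_subset_of_ncard_le hs (hcard _ _ hv hw).le (hNfin _)).symm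
    obtain ⟨a, hav, haw⟩ := Set.not_subset.mp h1
    obtain ⟨b, hbw, hbv⟩ := Set.not_subset.mp h2
    have hav' : (a : Module.End k V) v = 0 := hav
    have hbw' : (b : Module.End k V) w = 0 := hbw
    have haw' : (a : Module.End k V) w ≠ 0 := haw
    have hbv' : (b : Module.End k V) v ≠ 0 := hbv
    have hvw : v + w ≠ 0 := by
      intro h0
      apply haw'
      have : w = -v := by
        rw [eq_neg_iff_add_eq_zero, add_comm]; exact h0
      rw [this, map_neg, hav', neg_zero]
    have e1 : (a : Module.End k V) (v + w) = (a : Module.End k V) w := by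
      rw [map_add, hav', zero_add]
    have e2 : (b : Module.End k V) (v + w) = (b : Module.End k V) v := by
      rw [map_add, hbw', add_zero]
    have k1 : N (v + w) = N w := by
      rw [heq a (v + w) hvw (by rw [e1]; exact haw'), e1]
      exact (heq a w hw haw').symm
    have k2 : N (v + w) = N v := by
      rw [heq b (v + w) hvw (by rw [e2]; exact hbv'), e2]
      exact (heq b v hv hbv').symm
    exact hne (k2.symm.trans k1)
  intro hfv
  apply hf0
  apply LinearMap.ext
  intro w
  by_cases hw : w = 0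
  · rw [hw]; simp
  · have : (⟨f, hf⟩ : R) ∈ N w := by
      rw [← hall v w hv hw]
      exact hfv
    exact this

end Cfsg.Agent.Lib.Helper41.HUPT
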