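import Mathlib
import Cfsg.Agent.Lib.Helper50.HUPT.Defs
import Cfsg.Agent.Lib.Helper41.HUPT.Fld

/-!
# HUPT project (S3360): package [FLD]
-/

set_option autoImplicit false

universe u v

namespace Cfsg.Agent.Lib.Helper41.HUPT

open Cfsg.Agent.Lib.Helper50.HUPT

theorem pkgFld : PkgFld.{u, v} := by
  intro q _ V _ _ _ _ G _ _ ρ htr K hcomm hnorm
  refine ⟨hcomm, fun f hf hf0 => ?_⟩
  rw [← LinearMap.ker_eq_bot, eq_bot_iff]
  intro v hv
  rw [Submodule.mem_bot]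
  by_contra hv0
  exact fld_lemma ρ htr K hcomm (fun g f hf => hnorm g f hf) f hf hf0 v hv0 (LinearMap.mem_ker.mp hv)

end Cfsg.Agent.Lib.Helper41.HUPT
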